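import Cfsg.Agent.Base
import Cfsg.Agent.Lib.ClGeo.Transv
import Cfsg.Agent.Lib.GL.Simple

/-! Transvections `T v f = 1 + v f` of `SL`, inverse-transpose automorphism, number of subspaces. -/

set_option autoImplicit false
open Matrix Module

namespace H65.MD

variable {ι : Type*} [Fintype ι] [DecidableEq ι] {F : Type*} [Field F]

theorem sl_smul (g : SpecialLinearGroup ι F) (v : ι → F) : g • v = g.1 *ᵥ v := rfl

theorem sl_ext {a b : SpecialLinearGroup ι F} (h : a.1 = b.1) : a = b := Subtype.ext h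

omit [DecidableEq ι] in
theorem exists_notMem_of_finrank_lt (W : Submodule F (ι → F)) (h : finrank F W < Fintype.card ι) :
    ∃ x, x ∉ W := by
  by_contra hc
  push Not at hc
  have h1 := Submodule.finrank_mono (show ⊤ ≤ W from fun x _ => hc x)
  simp only [finrank_top, finrank_fintype_fun_eq_card] at h1
  omega

theorem finrank_span_pair_le {V : Type*} [AddCommGroup V] [Module F V] (v w : V) :
    finrank F (Submodule.span F {v, w}) ≤ 2 := by
  classical
  refine (finrank_span_le_card (R := F) ({v, w} : Set V)).trans ?_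
  rw [Set.toFinset_insert, Set.toFinset_singleton]; exact Finset.card_le_two

open Classical in
/-- the transvection with centre `v` and axis `f` (the identity if `f v ≠ 0`) -/
noncomputable def T (v f : ι → F) : SpecialLinearGroup ι F :=
  if h : f ⬝ᵥ v = 0 then H30.tvSL v f h else 1

theorem T_val {v f : ι → F} (h : f ⬝ᵥ v = 0) : (T v f).1 = 1 + vecMulVec v f := by
  rw [T, dif_pos h]; rfl

theorem T_smul_vec {v f : ι → F} (h : f ⬝ᵥ v = 0) (x : ι → F) :
    T v f • x = x + (f ⬝ᵥ x) • v := by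
  rw [sl_smul, T_val h, add_mulVec, one_mulVec, vecMulVec_mulVec]
  simp

theorem vecMul_T {v f : ι → F} (h : f ⬝ᵥ v = 0) (φ : ι → F) :
    φ ᵥ* (T v f).1 = φ + (φ ⬝ᵥ v) • f := by
  rw [T_val h, vecMul_add, vecMul_one, vecMul_vecMulVec]

theorem T_zero_right (v : ι → F) : T v 0 = 1 :=
  Subtype.ext (by rw [T_val (zero_dotProduct v)]; simp)

theorem T_zero_left (f : ι → F) : T 0 f = 1 :=
  Subtype.ext (by rw [T_val (dotProduct_zero f)]; simp)

theorem T_add_right {v f f' : ι → F} (h : f ⬝ᵥ v = 0) (h' : f' ⬝ᵥ v = 0) :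
    T v (f + f') = T v f * T v f' := sl_ext (by
  rw [Matrix.SpecialLinearGroup.coe_mul, T_val h, T_val h', T_val (by rw [add_dotProduct, h, h', add_zero]),
    add_mul, mul_add, mul_add, vecMulVec_mul_vecMulVec, h, vecMulVec_add]
  simp only [one_mul, mul_one, zero_smul, vecMulVec_zero, add_zero]
  abel)

theorem T_add_left {u u' f : ι → F} (h : f ⬝ᵥ u = 0) (h' : f ⬝ᵥ u' = 0) :
    T (u + u') f = T u f * T u' f := sl_ext (by
  rw [Matrix.SpecialLinearGroup.coe_mul, T_val h, T_val h', T_val (by rw [dotProduct_add, h, h', add_zero]),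
    add_mul, mul_add, mul_add, vecMulVec_mul_vecMulVec, h', add_vecMulVec]
  simp only [one_mul, mul_one, zero_smul, vecMulVec_zero, add_zero]
  abel)

theorem T_neg_right {v f : ι → F} (h : f ⬝ᵥ v = 0) : T v (-f) = (T v f)⁻¹ :=
  eq_inv_of_mul_eq_one_right (by
    rw [← T_add_right h (by rw [neg_dotProduct, h, neg_zero]), add_neg_cancel, T_zero_right])

theorem T_neg_left {v f : ι → F} (h : f ⬝ᵥ v = 0) : T (-v) f = (T v f)⁻¹ :=
  eq_inv_of_mul_eq_one_right (by
    rw [← T_add_left h (by rw [dotProduct_neg, h, neg_zero]), add_neg_cancel, T_zero_left])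

theorem T_smul {v f : ι → F} (h : f ⬝ᵥ v = 0) (c : F) : T (c • v) f = T v (c • f) :=
  Subtype.ext (by
    rw [T_val (by rw [dotProduct_smul, h, smul_zero]), T_val (by rw [smul_dotProduct, h, smul_zero]),
      smul_vecMulVec, vecMulVec_smul])

theorem vecMul_inv_dot (g : SpecialLinearGroup ι F) (f v : ι → F) :
    (f ᵥ* (g⁻¹).1) ⬝ᵥ (g • v) = f ⬝ᵥ v := by
  rw [← dotProduct_mulVec, ← sl_smul, inv_smul_smul]

theorem T_conj (g : SpecialLinearGroup ι F) {v f : ι → F} (h : f ⬝ᵥ v = 0) :
    g * T v f * g⁻¹ = T (g • v) (f ᵥ* (g⁻¹).1) := sl_ext (by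
  rw [Matrix.SpecialLinearGroup.coe_mul, Matrix.SpecialLinearGroup.coe_mul, T_val h,
    T_val (by rw [vecMul_inv_dot, h]), H30.conj_one_add_vecMulVec]; rfl)

/-- the commutator relation -/
theorem T_comm {v f u φ : ι → F} (h : f ⬝ᵥ v = 0) (h' : φ ⬝ᵥ u = 0) (hv : φ ⬝ᵥ v = 0) :
    T v f * T u φ = T v ((f ⬝ᵥ u) • φ) * (T u φ * T v f) := by
  have h1 := T_conj (T v f) h'
  rw [T_smul_vec h, ← T_neg_right h, vecMul_T (by rw [neg_dotProduct, h, neg_zero]), hv, zero_smul,
    add_zero, T_neg_right h, add_comm, T_add_left (by rw [dotProduct_smul, hv, smul_zero]) h',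
    T_smul hv] at h1
  rw [← mul_assoc, ← h1, inv_mul_cancel_right]

theorem eq_top_of_T (H : Subgroup (SpecialLinearGroup ι F))
    (h : ∀ v f, f ⬝ᵥ v = 0 → T v f ∈ H) : H = ⊤ :=
  H10.SL_eq_top_of_transvection_mem H fun i j hij c => by
    have h1 : (Pi.single j c : ι → F) ⬝ᵥ Pi.single i 1 = 0 := by simp [hij.symm]
    convert h _ _ h1
    refine Subtype.ext ?_
    rw [T_val h1]
    ext a b
    simp only [SpecialLinearGroup.transvection, Matrix.transvection, Matrix.add_apply, vecMulVec_apply,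
      Matrix.single, of_apply, Pi.single_apply, eq_comm (a := i), eq_comm (a := j)]
    split_ifs <;> simp_all

/-- the inverse-transpose automorphism -/
def tau : SpecialLinearGroup ι F →* SpecialLinearGroup ι F :=
  MonoidHom.mk' (fun g => (g⁻¹).transpose) fun a b => sl_ext (by
    simp only [_root_.mul_inv_rev, Matrix.SpecialLinearGroup.coe_mul, SpecialLinearGroup.coe_transpose,
      transpose_mul])

theorem tau_tau (g : SpecialLinearGroup ι F) : tau (tau g) = g := by
  rw [← inv_inv (tau g), map_inv, ← map_inv tau g]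
  refine inv_eq_iff_eq_inv.2 (Subtype.ext ?_)
  change (((tau g⁻¹)⁻¹).1)ᵀ = _
  rw [← map_inv, inv_inv]
  rfl

theorem tau_T {v f : ι → F} (h : f ⬝ᵥ v = 0) : tau (T v f) = T f (-v) := Subtype.ext (by
  change (((T v f)⁻¹).1)ᵀ = _
  rw [← T_neg_left h, T_val (by rw [dotProduct_neg, h, neg_zero]),
    T_val (by rw [neg_dotProduct, dotProduct_comm, h, neg_zero]), transpose_add, transpose_one,
    transpose_vecMulVec])

omit [DecidableEq ι] in
theorem exists_dot_ann (W : Submodule F (ι → F)) {y : ι → F} (hy : y ∉ W) (c : F) :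
    ∃ f : ι → F, (∀ x ∈ W, f ⬝ᵥ x = 0) ∧ f ⬝ᵥ y = c := by
  classical
  obtain ⟨g, h1, h2⟩ := Submodule.exists_dual_map_eq_bot_of_notMem hy inferInstance
  obtain ⟨φ, rfl⟩ := (dotProductEquiv F ι).surjective g
  have h3 : φ ⬝ᵥ y ≠ 0 := h1
  refine ⟨(c / (φ ⬝ᵥ y)) • φ, fun x hx => ?_, ?_⟩
  · have : φ ⬝ᵥ x = 0 := (Submodule.eq_bot_iff _).1 h2 _ ⟨x, hx, rfl⟩
    rw [smul_dotProduct, this, smul_zero]
  · rw [smul_dotProduct, smul_eq_mul, div_mul_cancel₀ _ h3]

/-- the stabiliser of `v` is transitive on the vectors outside `⟨v⟩` -/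
theorem exists_fix_smul (h3 : 3 ≤ Fintype.card ι) {v w w' : ι → F}
    (hw : w ∉ Submodule.span F {v}) (hw' : w' ∉ Submodule.span F {v}) :
    ∃ g : SpecialLinearGroup ι F, g • v = v ∧ g • w = w' := by
  have key : ∀ {a b : ι → F}, a ∉ Submodule.span F {v, b - a} →
      ∃ g : SpecialLinearGroup ι F, g • v = v ∧ g • a = b := fun {a b} h => by
    obtain ⟨f, h1, h2⟩ := exists_dot_ann _ h 1
    have h4 := h1 (b - a) (Submodule.subset_span (by simp))
    refine ⟨T (b - a) f, ?_, ?_⟩
    · rw [T_smul_vec h4, h1 v (Submodule.subset_span (by simp)), zero_smul, add_zero]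
    · rw [T_smul_vec h4, h2, one_smul, add_sub_cancel]
  have key2 : ∀ {a b : ι → F}, a ∉ Submodule.span F {v} → b ∉ Submodule.span F {v, a} →
      a ∉ Submodule.span F {v, b - a} := fun {a b} ha hb h => by
    obtain ⟨s, t, hst⟩ := Submodule.mem_span_pair.1 h
    by_cases ht : t = 0
    · exact ha (Submodule.mem_span_singleton.2 ⟨s, by rw [← hst, ht, zero_smul, add_zero]⟩)
    · refine hb (Submodule.mem_span_pair.2 ⟨-(s / t), 1 + 1 / t, ?_⟩)
      have : b = a + t⁻¹ • (a - s • v) := by
        nth_rewrite 2 [← hst]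
        rw [add_sub_cancel_left, smul_smul, inv_mul_cancel₀ ht, one_smul, add_sub_cancel]
      rw [this]; module
  by_cases h : w' ∈ Submodule.span F {v, w}
  · obtain ⟨x, hx⟩ := exists_notMem_of_finrank_lt _ ((finrank_span_pair_le v w).trans_lt h3)
    obtain ⟨g1, h1, h2⟩ := key (key2 hw hx)
    obtain ⟨g2, h4, h5⟩ := key (key2 hw' (b := x) fun h' => hx (by
      refine Submodule.span_le.2 ?_ h'
      rintro _ (rfl | rfl)
      exacts [Submodule.subset_span (by simp), h]))
    exact ⟨g2⁻¹ * g1, by rw [mul_smul, h1, inv_smul_eq_iff, h4],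
      by rw [mul_smul, h2, inv_smul_eq_iff, h5]⟩
  · exact key (key2 hw h)

/-- there are at least as many `k`-subspaces as points -/
theorem le_card_subspaces {V : Type*} [AddCommGroup V] [Module F V] [Finite F] [Finite V] {k : ℕ}
    (hk : 0 < k) (hkn : k < finrank F V) :
    Nat.card F ^ finrank F V - 1 ≤
      Nat.card {U : Submodule F V // finrank F U = k} * (Nat.card F - 1) := by
  classical
  have := Fintype.ofFinite F
  have := Fintype.ofFinite {U : Submodule F V // finrank F U = k}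
  have h1 : Nat.card {s : Fin k → V // LinearIndependent F s} =
      Nat.card (Σ U : {U : Submodule F V // finrank F U = k},
        {s : Fin k → U.1 // LinearIndependent F s}) := by
    symm
    have key : ∀ (U : {U : Submodule F V // finrank F U = k}) (s : Fin k → V),
        LinearIndependent F s → (∀ i, s i ∈ U.1) → U.1 = Submodule.span F (Set.range s) :=
      fun U s hs hU => (Submodule.eq_of_le_of_finrank_eq (Submodule.span_le.2 (by
        rintro _ ⟨i, rfl⟩; exact hU i)) (by rw [finrank_span_eq_card hs, U.2, Fintype.card_fin])).symm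
    refine Nat.card_congr (Equiv.ofBijective (fun x => ⟨fun i => (x.2.1 i : V),
      x.2.2.map' x.1.1.subtype x.1.1.ker_subtype⟩) ⟨?_, ?_⟩)
    · rintro ⟨U, s, hs⟩ ⟨U', s', hs'⟩ h
      have h2 : (fun i => (s i : V)) = fun i => (s' i : V) := congrArg Subtype.val h
      obtain rfl : U = U' := Subtype.ext
        ((key U _ (hs.map' U.1.subtype U.1.ker_subtype) fun i => (s i).2).trans
          ((congrArg (fun t => Submodule.span F (Set.range t)) h2).trans
            (key U' _ (hs'.map' U'.1.subtype U'.1.ker_subtype) fun i => (s' i).2).symm))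
      obtain rfl : s = s' := funext fun i => Subtype.ext (congrFun h2 i)
      rfl
    · rintro ⟨s, hs⟩
      exact ⟨⟨⟨Submodule.span F (Set.range s), by rw [finrank_span_eq_card hs, Fintype.card_fin]⟩,
        fun i => ⟨s i, Submodule.subset_span ⟨i, rfl⟩⟩,
        LinearIndependent.of_comp (Submodule.subtype _) hs⟩, rfl⟩
  rw [card_linearIndependent hkn.le, Nat.card_sigma, Finset.sum_congr rfl fun U _ =>
    (card_linearIndependent (K := F) (V := U.1) U.2.ge).trans (by rw [U.2]),
    Finset.sum_const, Finset.card_univ, smul_eq_mul, ← Nat.card_eq_fintype_card,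
    ← Nat.card_eq_fintype_card] at h1
  obtain ⟨k, rfl⟩ := Nat.exists_eq_add_of_le' hk
  have hq : 1 < Nat.card F := Finite.one_lt_card
  generalize Nat.card F = q at *
  generalize Nat.card {U : Submodule F V // finrank F U = k + 1} = M at *
  generalize finrank F V = n at *
  rw [Fin.prod_univ_succ, Fin.prod_univ_castSucc] at h1
  simp only [Fin.val_zero, pow_zero, Fin.val_succ, Fin.val_castSucc, Fin.val_last] at h1
  have h2 : (∏ i : Fin k, (q ^ (k + 1) - q ^ (i : ℕ))) * q ^ k ≤
      ∏ i : Fin k, (q ^ n - q ^ ((i : ℕ) + 1)) := by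
    rw [show q ^ k = ∏ _i : Fin k, q by simp, ← Finset.prod_mul_distrib]
    refine Finset.prod_le_prod' fun i _ => ?_
    rw [Nat.sub_mul, ← pow_succ, ← pow_succ]
    exact Nat.sub_le_sub_right (Nat.pow_le_pow_right hq.le hkn) _
  have h3 : 0 < (∏ i : Fin k, (q ^ (k + 1) - q ^ (i : ℕ))) * q ^ k :=
    Nat.mul_pos (Finset.prod_pos fun i _ => Nat.sub_pos_of_lt (Nat.pow_lt_pow_right hq (by omega)))
      (by positivity)
  refine Nat.le_of_mul_le_mul_right ?_ h3
  refine (Nat.mul_le_mul_left _ h2).trans (h1.le.trans (le_of_eq ?_))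
  rw [pow_succ q k, ← Nat.mul_sub_one]
  ring

end H65.MD
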